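import Cfsg.Agent.SP.NTh.CentA
import Cfsg.Agent.OrdDiv.Table
import Cfsg.Agent.S2121
import Cfsg.Agent.H878.EPX.Outer
import Cfsg.Agent.H740.S8.Comm
import Cfsg.Agent.H942.U4
import Cfsg.Agent.Th.E8Hom
import Cfsg.Agent.H347.HX.G23.Main

/-! # S5755, row `Th`: the socles `G₂(3)` and `U₄(3)` (helper19) -/

set_option autoImplicit false
set_option maxHeartbeats 400000
set_option maxRecDepth 100000

namespace Cfsg.Agent.SP.NTh.G2

open Subgroup Cfsg.Agent.SP Cfsg.Agent.OrdDiv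

theorem cand_u43 : ∀ g ∈ cands [(2, 7), (3, 6), (5, 1), (7, 1)] 3265920, ordN g = 3265920 → g = .psu 4 3 := by
  decide +kernel

theorem cand_g23 : ∀ g ∈ cands [(2, 6), (3, 6), (7, 1), (13, 1)] 4245696, ordN g = 4245696 → g = .g2 3 := by
  decide +kernel

theorem real_u43 (hC : CFSG.{0}) {S : Type} [Group S] [Finite S] [IsSimpleGroup S]
    (hna : ¬ ∀ a b : S, a * b = b * a) (hS : Nat.card S = 3265920) : Real (.psu 4 3) S := by
  obtain ⟨g, hg, hR, ho⟩ := exists_good table (hC S) hna (l := [(2, 7), (3, 6), (5, 1), (7, 1)])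
    (N := 3265920) (by decide +kernel) (by rw [hS])
  rw [cand_u43 g hg (ho.symm.trans hS)] at hR
  exact hR

theorem real_g23 (hC : CFSG.{0}) {S : Type} [Group S] [Finite S] [IsSimpleGroup S]
    (hna : ¬ ∀ a b : S, a * b = b * a) (hS : Nat.card S = 4245696) : Real (.g2 3) S := by
  obtain ⟨g, hg, hR, ho⟩ := exists_good table (hC S) hna (l := [(2, 6), (3, 6), (7, 1), (13, 1)])
    (N := 4245696) (by decide +kernel) (by rw [hS])
  rw [cand_g23 g hg (ho.symm.trans hS)] at hR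
  exact hR

theorem rowU43 : Row 3265920 := by
  intro hC _ A B L hA hL
  have := finTh
  have := hA.simple
  have : IsSimpleGroup Th := Cfsg.Agent.Th.Final.isSimple
  obtain ⟨F, _, _, hF, ⟨e⟩⟩ := real_u43 hC hA.nonab hL
  obtain ⟨φ, hφ⟩ := Cfsg.Agent.Th.E8Hom.embeds (G := Th) ⟨MulEquiv.refl _⟩
  exact (H942.U4.psu4 (F₉ := F) hF (L.map φ)).false ((L.equivMapOfInjective φ hφ).symm.trans e)

theorem model {S : Type} [Group S] (hR : Real (.g2 3) S) : Nonempty (S ≃* ↥(Lie.chevG2.group (ZMod 3))) := by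
  classical
  obtain ⟨F, _, _, hF, ⟨e⟩⟩ := hR
  have σ : F ≃+* ZMod 3 := FiniteField.ringEquivOfCardEq (by rw [ZMod.card, hF])
  exact ⟨e.trans (ChevalleyStructure.FieldIso.groupEquiv Lie.chevG2 σ)⟩

theorem card_aut {S : Type} [Group S] [Finite S] (e : S ≃* ↥(Lie.chevG2.group (ZMod 3))) :
    Nat.card (MulAut S) ∣ Nat.card S * 2 := by
  have : Fact (Nat.Prime 3) := ⟨Nat.prime_three⟩
  have h0 := S2121.result (F := ZMod 3) 3 1 (by rw [ZMod.card, pow_one]) (by norm_num)
  rw [if_pos rfl, mul_one] at h0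
  rw [Nat.card_congr (MulAut.congr e).toEquiv, Nat.card_congr e.toEquiv,
    Subgroup.card_eq_card_quotient_mul_card_subgroup (Inn _), mul_comm, ← h0]
  exact Nat.mul_dvd_mul (Subgroup.card_range_dvd _) dvd_rfl

theorem classes_le {S : Type} [Group S] (e : S ≃* ↥(Lie.chevG2.group (ZMod 3))) :
    Nat.card (ConjClasses S) ≤ 23 := by
  obtain ⟨e₀⟩ := H347.HX.G23.iso.2.2
  let ψ := e₀.trans e.symm
  have h : Function.Surjective fun i : Fin H347.HX.G23.wv.length =>
      ConjClasses.mk (ψ (H347.HX.ev H347.HX.G23.s (H347.HX.G23.wr (H347.HX.G23.wv.get i)))) := by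
    intro c
    obtain ⟨g, rfl⟩ := ConjClasses.mk_surjective c
    obtain ⟨v, hv, hc⟩ := H347.HX.G23.classes (ψ.symm g)
    obtain ⟨i, rfl⟩ := List.get_of_mem hv
    refine ⟨i, ConjClasses.mk_eq_mk_iff_isConj.2 ?_⟩
    have h1 := ψ.toMonoidHom.map_isConj hc
    rwa [show ψ.toMonoidHom (ψ.symm g) = g from ψ.apply_symm_apply g] at h1
  have h2 := Nat.card_le_card_of_surjective _ h
  rwa [Nat.card_fin] at h2

theorem rowG23 : Row 4245696 := by
  classical
  intro hC hT A B L hA hL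
  have := finTh
  have := hA.simple
  obtain ⟨e⟩ := model (real_g23 hC hA.nonab hL)
  have hp := hA.pair.pair
  have hinj : Function.Injective ((normalizerMonoidHom L).comp (inclusion hA.norm)) := by
    rw [injective_iff_map_eq_one]
    intro x hx
    refine Subtype.ext (hA.cent x x.2 fun y hy => ?_)
    have h1 : (x : Th) * y * (x : Th)⁻¹ = y := congrArg (fun α : MulAut L => (α ⟨y, hy⟩ : Th)) hx
    exact mul_inv_eq_iff_eq_mul.1 h1
  have h1 := (card_dvd_of_injective _ hinj).trans (card_aut e)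
  have h2 := NegS.card_mul_relIndex (hA.le.trans hp.le)
  have h3 := relIndex_mul_relIndex L B A hA.le hp.le
  have h4 := hp.relIndex_ne_one
  rw [← h2, Nat.mul_dvd_mul_iff_left Nat.card_pos, ← h3] at h1
  have h5 : B.relIndex A = 2 :=
    ((Nat.dvd_prime Nat.prime_two).1 ((Dvd.intro_left _ rfl).trans h1)).resolve_left h4
  have h6 : L.relIndex A = 2 := by
    rw [h5] at h1 h3
    have h8 := Nat.le_of_dvd (by norm_num) h1
    have h7 : 0 < Nat.card A := Nat.card_pos
    rw [← h2] at h7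
    have h9 := Nat.pos_of_mul_pos_left h7
    omega
  have hk := classes_le e
  have a1 := H878.EPX.ncard_sq_le A L fun a ha ha' b hb hb' => NegS.mul_mem_of_two h6 ha hb ha' hb'
  let _ : Fintype L := Fintype.ofFinite _
  have a2 := H740.S8.Comm.sq_card_sq_le L
  have a3 : nOrd A 2 ≤ {t : Th | t ∈ A ∧ t ∉ L ∧ t * t = 1}.ncard + (H740.S8.Comm.sq L).card := by
    rw [← Set.ncard_coe_finset, ← Set.ncard_image_of_injective _ L.subtype_injective]
    refine le_trans (Set.ncard_le_ncard ?_) (Set.ncard_union_le _ _)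
    rintro x ⟨hx, ho⟩
    have hxx : x * x = 1 := by rw [← pow_two, ← ho, pow_orderOf_eq_one]
    by_cases hxL : x ∈ L
    · exact Or.inr ⟨⟨x, hxL⟩, H740.S8.Comm.mem_sq.2 (Subtype.ext hxx), rfl⟩
    · exact Or.inl ⟨hx, hxL, hxx⟩
  have a4 := hT.two hp (by rw [h5])
  rw [hL] at a1 a2
  have b1 : {t : Th | t ∈ A ∧ t ∉ L ∧ t * t = 1}.ncard < 10000 := by
    by_contra h
    have := Nat.pow_le_pow_left (not_lt.1 h) 2
    omega
  have b2 : (H740.S8.Comm.sq L).card < 10000 := by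
    by_contra h
    have := Nat.mul_le_mul (not_lt.1 h) (not_lt.1 h)
    omega
  omega

end Cfsg.Agent.SP.NTh.G2

namespace Cfsg.Agent.SP.NTh

/-- **The row `G₂(3)`.** -/
theorem rowG23 : Row 4245696 := G2.rowG23

/-- **The row `U₄(3)`.** -/
theorem rowU43 : Row 3265920 := G2.rowU43

end Cfsg.Agent.SP.NTh
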